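import Mathlib.AlgebraicGeometry.Fiber
import Mathlib.AlgebraicGeometry.Morphisms.FinitePresentation
import Mathlib.Topology.Constructible
import Mathlib.RingTheory.Extension.Presentation.Core
import Groth.Agent.Ega43.ConsCrit
import Groth.Agent.UnramB.NoethModel

/-!
# Local constructibility of fibrewise loci in the source

`E f x` is a condition on a point `x` of the source of `f : X ⟶ S` (typically: the fibre of `f`
through `x` has a certain property at `x`).  If `E` is compatible with base change and with open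
immersions in the source, then the local constructibility of `{x | E f x}` for all `f` locally of
finite presentation reduces to a statement over domains of finite type over `ℤ`.
-/

set_option autoImplicit false
universe u
open CategoryTheory CategoryTheory.Limits AlgebraicGeometry Topology Set.Notation

namespace Groth.Agent.Ega4fib.H144.SrcLocus

/-- A pointwise condition on the sources of morphisms of schemes which is compatible with base
change and with open immersions in the source (for morphisms locally of finite presentation). -/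
structure IsSrcLocus (E : ∀ {X S : Scheme.{u}}, (X ⟶ S) → X → Prop) : Prop where
  bc : ∀ {X S X' S' : Scheme.{u}} {f : X ⟶ S} {f' : X' ⟶ S'} {g : S' ⟶ S} {g' : X' ⟶ X},
    IsPullback g' f' f g → LocallyOfFinitePresentation f → ∀ x' : X', E f' x' ↔ E f (g' x')
  openSrc : ∀ {U X S : Scheme.{u}} (j : U ⟶ X) (f : X ⟶ S), IsOpenImmersion j →
    LocallyOfFinitePresentation f → ∀ v : U, E (j ≫ f) v ↔ E f (j v)

/-! ### Conditions defined on fibres -/

section fibre

/-- A pointwise condition on schemes locally of finite type over fields, compatible with field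
extensions and open immersions. -/
structure FibreCond (P : ∀ {K : CommRingCat.{u}} {Z : Scheme.{u}}, (Z ⟶ Spec K) → Z → Prop) :
    Prop where
  bc : ∀ {K L : CommRingCat.{u}} {i : K ⟶ L} {Z Z' : Scheme.{u}}
    {g : Z ⟶ Spec K} {g' : Z' ⟶ Spec L} {p : Z' ⟶ Z}, IsField K → IsField L →
    IsPullback p g' g (Spec.map i) → LocallyOfFiniteType g → ∀ z' : Z', P g' z' ↔ P g (p z')
  openSrc : ∀ {K : CommRingCat.{u}} {U Z : Scheme.{u}} (j : U ⟶ Z) (g : Z ⟶ Spec K), IsField K →
    IsOpenImmersion j → LocallyOfFiniteType g → ∀ v : U, P (j ≫ g) v ↔ P g (j v)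

/-- The condition at the point `x` on the fibre through `x`. -/
def onFibre (P : ∀ {K : CommRingCat.{u}} {Z : Scheme.{u}}, (Z ⟶ Spec K) → Z → Prop)
    {X S : Scheme.{u}} (f : X ⟶ S) (x : X) : Prop :=
  P (f.fiberToSpecResidueField (f x)) (f.asFiber x)

variable {P : ∀ {K : CommRingCat.{u}} {Z : Scheme.{u}}, (Z ⟶ Spec K) → Z → Prop}

theorem onFibre_iff {X S : Scheme.{u}} (f : X ⟶ S) (x : X) (s : S) (z : f.fiber s)
    (hz : f.fiberι s z = x) : onFibre P f x ↔ P (f.fiberToSpecResidueField s) z := by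
  have hs : f x = s := by
    rw [← hz, ← Scheme.Hom.comp_apply, Scheme.Hom.fiber_fac, Scheme.Hom.comp_apply]
    have := (S.fromSpecResidueField s).isEmbedding
    have h := Set.mem_range_self (f := S.fromSpecResidueField s) (f.fiberToSpecResidueField s z)
    rw [Scheme.range_fromSpecResidueField] at h
    exact h
  subst hs
  have : z = f.asFiber x := (f.fiberι _).isEmbedding.injective (by rw [hz, Scheme.Hom.fiberι_asFiber])
  rw [this]
  rfl

theorem isPullback_fiber {X S : Scheme.{u}} (f : X ⟶ S) (s : S) :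
    IsPullback (f.fiberι s) (f.fiberToSpecResidueField s) f (S.fromSpecResidueField s) :=
  IsPullback.of_hasPullback _ _

theorem locallyOfFiniteType_fiberToSpec {X S : Scheme.{u}} (f : X ⟶ S) [LocallyOfFiniteType f] (s : S) :
    LocallyOfFiniteType (f.fiberToSpecResidueField s) :=
  MorphismProperty.of_isPullback (isPullback_fiber f s) inferInstance

theorem FibreCond.isSrcLocus (hP : FibreCond @P) : IsSrcLocus (fun {_ _} f x => onFibre @P f x) where
  bc := by
    intro X S X' S' f f' g g' h hf x'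
    obtain ⟨m, hm, h5⟩ : ∃ m : f'.fiber (f' x') ⟶ f.fiber (g (f' x')),
        IsPullback m (f'.fiberToSpecResidueField (f' x')) (f.fiberToSpecResidueField (g (f' x')))
          (Spec.map (g.residueFieldMap (f' x'))) ∧ m ≫ f.fiberι (g (f' x')) = f'.fiberι (f' x') ≫ g' :=
      ⟨_, isPullback_fiberToSpecResidueField_of_isPullback h (f' x'), pullback.lift_fst _ _ _⟩
    have h4 := hP.bc (Field.toIsField (S.residueField (g (f' x'))))
      (Field.toIsField (S'.residueField (f' x'))) hm (locallyOfFiniteType_fiberToSpec f (g (f' x'))) (f'.asFiber x')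
    refine h4.trans (onFibre_iff f (g' x') _ _ ?_).symm
    rw [← Scheme.Hom.comp_apply, h5, Scheme.Hom.comp_apply, Scheme.Hom.fiberι_asFiber]
  openSrc := by
    intro U X S j f hj hf v
    obtain ⟨m, hm1, hm2, hm3⟩ : ∃ m : (j ≫ f).fiber ((j ≫ f) v) ⟶ f.fiber ((j ≫ f) v),
        IsPullback m ((j ≫ f).fiberι ((j ≫ f) v)) (f.fiberι ((j ≫ f) v)) j ∧
        m ≫ f.fiberToSpecResidueField _ = (j ≫ f).fiberToSpecResidueField _ ∧
        m ≫ f.fiberι _ = (j ≫ f).fiberι _ ≫ j := by
      have hs := isPullback_fiber f ((j ≫ f) v)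
      have hs' := isPullback_fiber (j ≫ f) ((j ≫ f) v)
      refine ⟨hs.lift ((j ≫ f).fiberι _ ≫ j) ((j ≫ f).fiberToSpecResidueField _) ?_, ?_,
        hs.lift_snd _ _ _, hs.lift_fst _ _ _⟩
      · rw [Category.assoc, Scheme.Hom.fiber_fac]
      · refine IsPullback.of_right (h₁₂ := f.fiberToSpecResidueField _) (h₂₂ := f)
          (v₁₃ := S.fromSpecResidueField _) ?_ (hs.lift_fst _ _ _) hs.flip
        rw [hs.lift_snd]
        exact hs'.flip
    have hmo : IsOpenImmersion m := MorphismProperty.of_isPullback (P := @IsOpenImmersion) hm1.flip hj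
    have := locallyOfFiniteType_fiberToSpec f ((j ≫ f) v)
    have h1 := hP.openSrc m (f.fiberToSpecResidueField _) (Field.toIsField (S.residueField _)) hmo inferInstance ((j ≫ f).asFiber v)
    rw [hm2] at h1
    refine h1.trans (onFibre_iff f (j v) _ _ ?_).symm
    rw [← Scheme.Hom.comp_apply, hm3, Scheme.Hom.comp_apply, Scheme.Hom.fiberι_asFiber]

end fibre

/-! ### Reductions -/

section main

variable {E : ∀ {X S : Scheme.{u}}, (X ⟶ S) → X → Prop}

/-- Composition with a monomorphism on the target. -/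
theorem IsSrcLocus.comp_mono (hE : IsSrcLocus @E) {X S T : Scheme.{u}} (f : X ⟶ S) (i : S ⟶ T) [Mono i]
    [LocallyOfFinitePresentation (f ≫ i)] (x : X) : E f x ↔ E (f ≫ i) x :=
  hE.bc (IsPullback.of_horiz_isIso_mono ⟨by simp⟩ : IsPullback (𝟙 X) f (f ≫ i) i) inferInstance x

/-- Reduction to the affine case. -/
theorem IsSrcLocus.isLocallyConstructible_of_affine (hE : IsSrcLocus @E)
    (H : ∀ {A B : CommRingCat.{u}} (φ : A ⟶ B), φ.hom.FinitePresentation →
      IsConstructible {x : ↥(Spec B) | E (Spec.map φ) x})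
    {X S : Scheme.{u}} (f : X ⟶ S) [LocallyOfFinitePresentation f] :
    IsLocallyConstructible {x : X | E f x} := by
  intro x
  obtain ⟨_, ⟨U, hU, rfl⟩, hxU, -⟩ :=
    S.isBasis_affineOpens.exists_subset_of_mem_open (Set.mem_univ (f x)) isOpen_univ
  obtain ⟨_, ⟨V, hV, rfl⟩, hxV, hVU⟩ :=
    X.isBasis_affineOpens.exists_subset_of_mem_open hxU (U.2.preimage f.continuous)
  replace hVU : V ≤ f ⁻¹ᵁ U := hVU
  let j := IsAffineOpen.fromSpec hV
  have hjo : IsOpenImmersion j := IsAffineOpen.isOpenImmersion_fromSpec hV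
  have hjr : Set.range j.base = (V : Set X) := IsAffineOpen.range_fromSpec hV
  have hj : x ∈ Set.range j.base := by rw [hjr]; exact hxV
  have hopen : IsOpen (Set.range j.base) := IsOpenImmersion.isOpen_range j
  refine ⟨Set.range j.base, hopen.mem_nhds hj, hopen, ?_⟩
  let e := j.isOpenEmbedding.isEmbedding.toHomeomorph
  have key : IsConstructible (j.base ⁻¹' {x : X | E f x}) := by
    have h1 := H (f.appLE U V hVU) (f.finitePresentation_appLE hU hV hVU)
    convert h1 using 1
    ext y
    have hlfp : LocallyOfFinitePresentation (Spec.map (f.appLE U V hVU) ≫ (IsAffineOpen.fromSpec hU)) := by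
      rw [hU.SpecMap_appLE_fromSpec f hV hVU]
      infer_instance
    have h3 := hE.openSrc j f inferInstance inferInstance y
    rw [← hU.SpecMap_appLE_fromSpec f hV hVU] at h3
    have hmono : IsOpenImmersion (IsAffineOpen.fromSpec hU) := IsAffineOpen.isOpenImmersion_fromSpec hU
    exact h3.symm.trans (hE.comp_mono _ _ y).symm
  have : (Set.range j.base) ↓∩ {x : X | E f x} = e.symm ⁻¹' (j.base ⁻¹' {x : X | E f x}) := by
    ext ⟨_, t, rfl⟩
    have : e.symm ⟨j.base t, t, rfl⟩ = t := e.symm_apply_apply t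
    change j.base t ∈ {x : X | E f x} ↔ j.base (e.symm ⟨j.base t, t, rfl⟩) ∈ {x : X | E f x}
    rw [this]
  rw [this]
  exact key.preimage_of_isOpenEmbedding e.symm.isOpenEmbedding

/-- Models over rings of finite type over `ℤ`. -/
theorem exists_model {A B : CommRingCat.{u}} (φ : A ⟶ B) (hφ : φ.hom.FinitePresentation) :
    ∃ (A₀ B₀ : CommRingCat.{u}) (φ₀ : A₀ ⟶ B₀) (a : A₀ ⟶ A) (b : B₀ ⟶ B),
      Algebra.FiniteType ℤ A₀ ∧ φ₀.hom.FinitePresentation ∧ IsPushout a φ₀ φ b := by
  classical
  algebraize [φ.hom]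
  have : Algebra.FinitePresentation A B := hφ
  let P := Algebra.Presentation.ofFinitePresentation A B
  let A₀ := Algebra.adjoin ℤ P.coeffs
  have hA₀ : Algebra.FiniteType ℤ A₀ := .adjoin_of_finite P.finite_coeffs
  have hrange : Set.range (algebraMap A₀ A) = (A₀ : Set A) := by
    ext x
    simp [A₀, Subalgebra.algebraMap_eq]
  have hP : P.HasCoeffs A₀ := ⟨by
    rw [hrange]
    exact Algebra.subset_adjoin⟩
  let B₀ := P.ModelOfHasCoeffs A₀
  refine ⟨.of A₀, .of B₀, CommRingCat.ofHom (algebraMap A₀ B₀), CommRingCat.ofHom (algebraMap A₀ A),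
    CommRingCat.ofHom (UnramB.NoethModel.modelMap P A₀), hA₀, ?_, UnramB.NoethModel.isPushout_model P A₀⟩
  exact RingHom.finitePresentation_algebraMap.mpr inferInstance

/-- Reduction to the case of a base of finite type over `ℤ`. -/
theorem IsSrcLocus.isConstructible_of_finiteType_int (hE : IsSrcLocus @E)
    (H : ∀ {A B : CommRingCat.{u}} (φ : A ⟶ B), Algebra.FiniteType ℤ A → φ.hom.FiniteType →
      IsConstructible {x : ↥(Spec B) | E (Spec.map φ) x})
    {A B : CommRingCat.{u}} (φ : A ⟶ B) (hφ : φ.hom.FinitePresentation) :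
      IsConstructible {x : ↥(Spec B) | E (Spec.map φ) x} := by
  obtain ⟨A₀, B₀, φ₀, a, b, hA₀, hφ₀, h⟩ := exists_model φ hφ
  have h1 := H φ₀ hA₀ (RingHom.FiniteType.of_finitePresentation hφ₀)
  have h2 := (Spec.map b).isConstructible_preimage h1
  convert h2 using 1
  ext x
  exact hE.bc (isPullback_SpecMap_of_isPushout _ _ _ _ h).flip
    ((HasRingHomProperty.Spec_iff (P := @LocallyOfFinitePresentation)).mpr hφ₀) x

theorem exists_point_of_isPullback {P X Y Z : Scheme.{u}} {fst : P ⟶ X} {snd : P ⟶ Y} {f : X ⟶ Z}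
    {g : Y ⟶ Z} (h : IsPullback fst snd f g) (x : X) (y : Y) (hxy : f x = g y) :
    ∃ z : P, fst z = x ∧ snd z = y := by
  obtain ⟨w, h1, h2⟩ := Scheme.Pullback.exists_preimage_pullback x y hxy
  refine ⟨h.isoPullback.inv w, ?_, ?_⟩
  · rw [← Scheme.Hom.comp_apply, h.isoPullback_inv_fst, h1]
  · rw [← Scheme.Hom.comp_apply, h.isoPullback_inv_snd, h2]

/-- The key reduction: over domains of finite type over `ℤ` and near a point over the generic point. -/
theorem IsSrcLocus.isConstructible_of_local (hE : IsSrcLocus @E)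
    (H : ∀ {A B : CommRingCat.{u}} [IsDomain A] (φ : A ⟶ B), Algebra.FiniteType ℤ A → φ.hom.FiniteType →
      ∀ q : ↥(Spec B), (Spec.map φ q).asIdeal = ⊥ → ∃ V : Set ↥(Spec B), q ∈ V ∧ IsConstructible V ∧
        IsConstructible (V ∩ {x : ↥(Spec B) | E (Spec.map φ) x}))
    {A B : CommRingCat.{u}} (φ : A ⟶ B) (hA : Algebra.FiniteType ℤ A) (hφ : φ.hom.FiniteType) :
      IsConstructible {x : ↥(Spec B) | E (Spec.map φ) x} := by
  have hAn : IsNoetherianRing A := Algebra.FiniteType.isNoetherianRing ℤ A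
  refine Ega43.ConsCrit.isConstructible_of_forall_exists (X := PrimeSpectrum B) _ (fun q => ?_)
  let p : Ideal A := ((Spec.map φ) q).asIdeal
  have hp : p.IsPrime := ((Spec.map φ) q).2
  let D : CommRingCat.{u} := .of (A ⧸ p)
  let π : A ⟶ D := CommRingCat.ofHom (Ideal.Quotient.mk p)
  have hπ : Function.Surjective π.hom := Ideal.Quotient.mk_surjective
  have hD : IsDomain D := Ideal.Quotient.isDomain p
  have hDft : Algebra.FiniteType ℤ D := hA.of_surjective (Ideal.Quotient.mkₐ ℤ p) Ideal.Quotient.mk_surjective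
  let i : B ⟶ pushout φ π := pushout.inl φ π
  let φ' : D ⟶ pushout φ π := pushout.inr φ π
  have h2 : IsPullback (Spec.map i) (Spec.map φ') (Spec.map φ) (Spec.map π) := isPullback_SpecMap_pushout φ π
  have hφ' : φ'.hom.FiniteType := by
    rw [← HasRingHomProperty.Spec_iff (P := @LocallyOfFiniteType)] at hφ ⊢
    exact MorphismProperty.of_isPullback (P := @LocallyOfFiniteType) h2 hφ
  have hφfp : LocallyOfFinitePresentation (Spec.map φ) := by
    rw [HasRingHomProperty.Spec_iff (P := @LocallyOfFinitePresentation)]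
    exact RingHom.FinitePresentation.of_finiteType.mp hφ
  have hπfp : LocallyOfFinitePresentation (Spec.map π) := by
    rw [HasRingHomProperty.Spec_iff (P := @LocallyOfFinitePresentation)]
    exact RingHom.FinitePresentation.of_finiteType.mp (RingHom.FiniteType.of_surjective _ hπ)
  have hifp : LocallyOfFinitePresentation (Spec.map i) :=
    MorphismProperty.of_isPullback (P := @LocallyOfFinitePresentation) h2.flip hπfp
  have hbot : (Spec.map π) (⊥ : PrimeSpectrum D) = (Spec.map φ) q := by
    apply PrimeSpectrum.ext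
    change Ideal.comap (Ideal.Quotient.mk p) ⊥ = p
    rw [← RingHom.ker_eq_comap_bot, Ideal.mk_ker]
  obtain ⟨q', hq', hq''⟩ := exists_point_of_isPullback h2 q (⊥ : PrimeSpectrum D) hbot.symm
  obtain ⟨V, hqV, hV, hVE⟩ := H φ' hDft hφ' q' (by rw [hq'']; rfl)
  refine ⟨(Spec.map i) '' V, (Spec.map i).isConstructible_image hV, ⟨q', hqV, hq'⟩, ?_⟩
  have h3 : (Spec.map i) '' V ∩ {x : ↥(Spec B) | E (Spec.map φ) x} =
      (Spec.map i) '' (V ∩ {x | E (Spec.map φ') x}) := by
    rw [← Set.image_inter_preimage]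
    congr 2
    ext x
    exact (hE.bc h2 hφfp x).symm
  change IsConstructible ((Spec.map i) '' V ∩ {x : ↥(Spec B) | E (Spec.map φ) x})
  rw [h3]
  exact (Spec.map i).isConstructible_image hVE

/-- **Criterion, local form.** -/
theorem IsSrcLocus.isLocallyConstructible_of_local (hE : IsSrcLocus @E)
    (H : ∀ {A B : CommRingCat.{u}} [IsDomain A] (φ : A ⟶ B), Algebra.FiniteType ℤ A → φ.hom.FiniteType →
      ∀ q : ↥(Spec B), (Spec.map φ q).asIdeal = ⊥ → ∃ V : Set ↥(Spec B), q ∈ V ∧ IsConstructible V ∧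
        IsConstructible (V ∩ {x : ↥(Spec B) | E (Spec.map φ) x}))
    {X S : Scheme.{u}} (f : X ⟶ S) [LocallyOfFinitePresentation f] :
    IsLocallyConstructible {x : X | E f x} :=
  hE.isLocallyConstructible_of_affine (fun φ hφ => hE.isConstructible_of_finiteType_int
    (fun φ hA hφ => hE.isConstructible_of_local H φ hA hφ) φ hφ) f

end main

end Groth.Agent.Ega4fib.H144.SrcLocus
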