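import Groth.Agent.Ega4fib.H144.SrcLocus
import Groth.Agent.FlatA.GenericFree2
import Mathlib.RingTheory.Flat.FaithfullyFlat.Basic
import Mathlib.RingTheory.RingHom.Flat
import Mathlib.RingTheory.Spectrum.Prime.FreeLocus
import Mathlib.RingTheory.Flat.Localization

/-!
# Usable forms of the criterion for local constructibility in the source

See `SrcLocus.lean` for the definition of `IsSrcLocus` and `FibreCond`.
-/

set_option autoImplicit false
universe u
open CategoryTheory CategoryTheory.Limits AlgebraicGeometry Topology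

namespace Groth.Agent.Ega4fib.H144.SrcLocus

variable {E : ∀ {X S : Scheme.{u}}, (X ⟶ S) → X → Prop}

/-- **Criterion, dichotomy form.** -/
theorem IsSrcLocus.isLocallyConstructible_of_dichotomy (hE : IsSrcLocus @E)
    (H : ∀ {A B : CommRingCat.{u}} [IsDomain A] (φ : A ⟶ B), Algebra.FiniteType ℤ A → φ.hom.FiniteType →
      ∀ q : PrimeSpectrum B, q.asIdeal.comap φ.hom = ⊥ → ∃ b ∉ q.asIdeal,
        (∀ r : PrimeSpectrum B, q.asIdeal ≤ r.asIdeal → b ∉ r.asIdeal → E (Spec.map φ) r) ∨
        (∀ r : PrimeSpectrum B, q.asIdeal ≤ r.asIdeal → b ∉ r.asIdeal → ¬ E (Spec.map φ) r))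
    {X S : Scheme.{u}} (f : X ⟶ S) [LocallyOfFinitePresentation f] :
    IsLocallyConstructible {x : X | E f x} := by
  refine hE.isLocallyConstructible_of_local (fun {A B} _ φ hA hφ q hq => ?_) f
  have hAn : IsNoetherianRing A := Algebra.FiniteType.isNoetherianRing ℤ A
  have hBn : IsNoetherianRing B := by
    algebraize [φ.hom]
    exact Algebra.FiniteType.isNoetherianRing A B
  obtain ⟨b, hb, h⟩ := H φ hA hφ q hq
  let V : Set (PrimeSpectrum B) := PrimeSpectrum.zeroLocus (q.asIdeal : Set B) ∩
    (PrimeSpectrum.basicOpen b : Set (PrimeSpectrum B))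
  have hV : IsConstructible V := by
    refine Topology.IsConstructible.inter ?_ PrimeSpectrum.isConstructible_basicOpen
    rw [← Topology.isConstructible_compl]
    exact (PrimeSpectrum.isRetrocompact_zeroLocus_compl_of_fg (IsNoetherian.noetherian q.asIdeal)).isConstructible
      (PrimeSpectrum.isClosed_zeroLocus _).isOpen_compl
  refine ⟨V, ⟨Set.Subset.rfl, hb⟩, hV, ?_⟩
  rcases h with h | h
  · have h1 : V ∩ {x : PrimeSpectrum B | E (Spec.map φ) x} = V := by
      refine Set.inter_eq_left.mpr ?_
      rintro r ⟨hr1, hr2⟩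
      exact h r hr1 hr2
    change IsConstructible (V ∩ {x : PrimeSpectrum B | E (Spec.map φ) x})
    rw [h1]
    exact hV
  · convert Topology.IsConstructible.empty using 1
    refine Set.eq_empty_iff_forall_notMem.mpr ?_
    rintro r ⟨⟨hr1, hr2⟩, hr3⟩
    exact h r hr1 hr2 hr3

/-- **Criterion, generic form.** -/
theorem IsSrcLocus.isLocallyConstructible_of_generic (hE : IsSrcLocus @E)
    (H : ∀ {A B : CommRingCat.{u}} [IsDomain A] (φ : A ⟶ B), Algebra.FiniteType ℤ A → φ.hom.FiniteType →
      ∃ a : A, a ≠ 0 ∧ IsConstructible ({x : PrimeSpectrum B | φ.hom a ∉ x.asIdeal} ∩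
        {x : PrimeSpectrum B | E (Spec.map φ) x}))
    {X S : Scheme.{u}} (f : X ⟶ S) [LocallyOfFinitePresentation f] :
    IsLocallyConstructible {x : X | E f x} := by
  refine hE.isLocallyConstructible_of_local (fun {A B} _ φ hA hφ q hq => ?_) f
  obtain ⟨a, ha, h⟩ := H φ hA hφ
  refine ⟨_, ?_, PrimeSpectrum.isConstructible_basicOpen (f := φ.hom a), h⟩
  intro h1
  have h2 : a ∈ ((Spec.map φ) q).asIdeal := h1
  rw [hq] at h2
  exact ha h2

theorem finiteType_int {A D : CommRingCat.{u}} (π : A ⟶ D) (hπ : π.hom.FiniteType)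
    (hA : Algebra.FiniteType ℤ A) : Algebra.FiniteType ℤ D := by
  algebraize [π.hom]
  have : Algebra.FiniteType A D := hπ
  exact hA.trans this

/-- Generic freeness, in terms of pushout squares. -/
theorem exists_free_of_isPushout {A B : CommRingCat.{u}} [IsDomain A] (φ : A ⟶ B) (hφ : φ.hom.FiniteType) :
    ∃ a : A, a ≠ 0 ∧ ∀ {P : CommRingCat.{u}} (i : B ⟶ P) (φ' : CommRingCat.of (Localization.Away a) ⟶ P),
      IsPushout φ (CommRingCat.ofHom (algebraMap A (Localization.Away a))) i φ' → φ'.hom.Flat := by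
  algebraize [φ.hom]
  have : Algebra.FiniteType A B := hφ
  obtain ⟨a, ha, hfree⟩ := FlatA.GenericFree.genFree_of_finiteType (R := A) B B
  refine ⟨a, ha, fun {P} i φ' h => ?_⟩
  algebraize [i.hom, φ'.hom, i.hom.comp φ.hom]
  have hw : i.hom.comp φ.hom = φ'.hom.comp (algebraMap A (Localization.Away a)) := by
    have := congr($(h.w).hom)
    simpa only [CommRingCat.hom_comp, CommRingCat.hom_ofHom] using this
  have t1 : IsScalarTower A (Localization.Away a) P := .of_algebraMap_eq' hw
  have hp : Algebra.IsPushout A (Localization.Away a) B P := (CommRingCat.isPushout_iff_isPushout.mp h.flip)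
  have hb := hp.1
  have hl := (isLocalizedModule_iff_isBaseChange (Submonoid.powers a) (Localization.Away a)
    (IsScalarTower.toAlgHom A B P).toLinearMap).mpr hb
  have := hfree.free (Localization.Away a) (IsScalarTower.toAlgHom A B P).toLinearMap
  exact (inferInstance : Module.Flat (Localization.Away a) P)

/-- **Criterion, flat form.** -/
theorem IsSrcLocus.isLocallyConstructible_of_flat (hE : IsSrcLocus @E)
    (H : ∀ {A B : CommRingCat.{u}} [IsDomain A] (φ : A ⟶ B), Algebra.FiniteType ℤ A → φ.hom.FiniteType →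
      φ.hom.Flat → IsConstructible {x : ↥(Spec B) | E (Spec.map φ) x})
    {X S : Scheme.{u}} (f : X ⟶ S) [LocallyOfFinitePresentation f] :
    IsLocallyConstructible {x : X | E f x} := by
  refine hE.isLocallyConstructible_of_generic (fun {A B} _ φ hA hφ => ?_) f
  have hAn : IsNoetherianRing A := Algebra.FiniteType.isNoetherianRing ℤ A
  obtain ⟨a, ha, h⟩ := exists_free_of_isPushout φ hφ
  refine ⟨a, ha, ?_⟩
  let D : CommRingCat.{u} := .of (Localization.Away a)
  let π : A ⟶ D := CommRingCat.ofHom (algebraMap A (Localization.Away a))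
  have hD : IsDomain D := IsLocalization.isDomain_localization
    (powers_le_nonZeroDivisors_of_noZeroDivisors ha)
  have hπft : π.hom.FiniteType := by
    have : Algebra.FinitePresentation A (Localization.Away a) := IsLocalization.Away.finitePresentation a
    exact RingHom.FiniteType.of_finitePresentation (RingHom.finitePresentation_algebraMap.mpr this)
  have hDft := finiteType_int π hπft hA
  let i : B ⟶ pushout φ π := pushout.inl φ π
  let φ' : D ⟶ pushout φ π := pushout.inr φ π
  have h2 : IsPullback (Spec.map i) (Spec.map φ') (Spec.map φ) (Spec.map π) := isPullback_SpecMap_pushout φ π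
  have hφ' : φ'.hom.FiniteType := by
    rw [← HasRingHomProperty.Spec_iff (P := @LocallyOfFiniteType)] at hφ ⊢
    exact MorphismProperty.of_isPullback (P := @LocallyOfFiniteType) h2 hφ
  have hφfp : LocallyOfFinitePresentation (Spec.map φ) := by
    rw [HasRingHomProperty.Spec_iff (P := @LocallyOfFinitePresentation)]
    exact RingHom.FinitePresentation.of_finiteType.mp hφ
  have hπo : IsOpenImmersion (Spec.map π) := IsOpenImmersion.of_isLocalization a
  have hio : IsOpenImmersion (Spec.map i) :=
    MorphismProperty.of_isPullback (P := @IsOpenImmersion) h2.flip hπo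
  have hflat : φ'.hom.Flat := h i φ' (IsPushout.of_hasPushout φ π)
  have h3 := H φ' hDft hφ' hflat
  have h4 := (Spec.map i).isConstructible_image h3
  suffices heq : {x : ↥(Spec B) | φ.hom a ∉ x.asIdeal} ∩ {x : ↥(Spec B) | E (Spec.map φ) x} =
      (Spec.map i) '' {x | E (Spec.map φ') x} by
    change IsConstructible ({x : ↥(Spec B) | φ.hom a ∉ x.asIdeal} ∩ {x : ↥(Spec B) | E (Spec.map φ) x})
    rw [heq]
    exact h4
  refine Set.ext fun x => ?_
  constructor
  · rintro ⟨hx1, hx2⟩
    have hx3 : (Spec.map φ) x ∈ Set.range (Spec.map π) := by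
      change PrimeSpectrum.comap φ.hom x ∈ Set.range (PrimeSpectrum.comap (algebraMap A (Localization.Away a)))
      rw [PrimeSpectrum.localization_away_comap_range (Localization.Away a) a]
      exact hx1
    obtain ⟨y, hy⟩ := hx3
    obtain ⟨z, hz, -⟩ := exists_point_of_isPullback h2 x y hy.symm
    exact ⟨z, (hE.bc h2 hφfp z).mpr (by rw [hz]; exact hx2), hz⟩
  · rintro ⟨z, hz1, rfl⟩
    refine ⟨?_, (hE.bc h2 hφfp z).mp hz1⟩
    have hx3 : (Spec.map φ) ((Spec.map i) z) ∈ Set.range (Spec.map π) :=
      ⟨(Spec.map φ') z, by rw [← Scheme.Hom.comp_apply, ← Scheme.Hom.comp_apply, h2.w]⟩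
    change PrimeSpectrum.comap φ.hom _ ∈ Set.range (PrimeSpectrum.comap (algebraMap A (Localization.Away a))) at hx3
    rw [PrimeSpectrum.localization_away_comap_range (Localization.Away a) a] at hx3
    exact hx3

end Groth.Agent.Ega4fib.H144.SrcLocus
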